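import Cfsg.Agent.H976.Inv.Unip

/-!
# The swapped piece and the main theorem
-/

set_option autoImplicit false

namespace Cfsg.Agent.H976.Inv

open Module Polynomial

variable {F : Type*} [Field F] {R : Type*} [CommRing R] [Algebra F R]
variable {V : Type*} [AddCommGroup V] [Module F V] [Module R V] [IsScalarTower F R V]
  {st : R →ₐ[F] R} {g : R} {ε κ : F} {B : V →ₗ[F] V →ₗ[F] F} {Q : V → F}

/-- the quadratic form vanishes on isotropic submodules on which `g - 1` is invertible -/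
theorem q_zero [FiniteDimensional F V] (h : Fm st g ε κ B Q) (hg1 : ∀ x : V, (g - 1) • x = 0 → x = 0)
    (W : Submodule R V) (hW : ∀ x ∈ W, ∀ y ∈ W, B x y = 0) (x : V) (hx : x ∈ W) : Q x = 0 := by
  have := finite_sub (F := F) W
  let L : W →ₗ[F] W := (Algebra.lsmul F F W (g - 1))
  have hL : ∀ y : W, L y = (g - 1) • y := fun y => rfl
  have hinj : Function.Injective L := by
    rw [injective_iff_map_eq_zero]
    intro y hy
    apply Subtype.ext
    apply hg1
    rw [hL] at hy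
    exact congrArg Subtype.val hy
  obtain ⟨y, hy⟩ := LinearMap.surjective_of_injective hinj ⟨x, hx⟩
  have h1 : (g - 1) • (y : V) = x := congrArg Subtype.val hy
  have h2 : x = g • (y : V) + (-(y : V)) := by rw [← h1, sub_smul, one_smul, sub_eq_add_neg]
  have h3 : Q x = Q (y : V) + Q (y : V) := by
    rw [h2, h.qadd, h.qg, h.qneg, hW _ (W.smul_mem _ y.2) _ (W.neg_mem y.2), mul_zero, add_zero]
  have h4 : Q (y : V) + Q (y : V) = 0 := by
    have h5 := h.qadd (y : V) (-(y : V))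
    rw [add_neg_cancel, h.q0, h.qneg, hW _ y.2 _ (W.neg_mem y.2), mul_zero, add_zero] at h5
    exact h5.symm
  rw [h3, h4]

theorem swap_piece [FiniteDimensional F V] (h : Fm st g ε κ B Q) (hnd : Nd B) {π : R} (hπ : Dich π)
    (hc : IsCoprime π (st π)) {n : ℕ} (hn : ∀ x : V, (π * st π) ^ n • x = 0) (hnt : ∃ x : V, x ≠ 0)
    (hg1 : ∀ x : V, (g - 1) • x = 0 → x = 0) :
    ∃ U : Submodule R V, U ≠ ⊥ ∧ Nd (rB B U) ∧ Good st (rB B U) (rQ Q U) := by
  obtain ⟨u, u', hu⟩ := hc.pow (m := n) (n := n)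
  have hn' : ∀ x : V, π ^ n • st π ^ n • x = 0 := fun x => by rw [smul_smul, ← mul_pow, hn]
  have hex : ∃ x : V, st π ^ n • x ≠ 0 := by
    by_contra hcon
    push Not at hcon
    obtain ⟨x, hx⟩ := hnt
    apply hx
    have h1 : π ^ n • x = 0 := by
      apply hnd
      intro y
      rw [h.adj, map_pow, hcon, map_zero]
    calc x = (u * π ^ n + u' * st π ^ n) • x := by rw [hu, one_smul]
      _ = 0 := by rw [add_smul, mul_smul, mul_smul, h1, hcon, smul_zero, smul_zero, add_zero]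
  have hexm : ∃ m : ℕ, ∀ x : V, π ^ m • st π ^ n • x = 0 := ⟨n, hn'⟩
  classical
  obtain ⟨k, hk1, hk2⟩ : ∃ k, (∀ x : V, π ^ (k + 1) • st π ^ n • x = 0) ∧ ∃ x : V, π ^ k • st π ^ n • x ≠ 0 := by
    have h1 := Nat.find_spec hexm
    have h0 : Nat.find hexm ≠ 0 := by
      intro h2
      rw [h2] at h1
      obtain ⟨x, hx⟩ := hex
      apply hx
      have := h1 x
      rwa [pow_zero, one_smul] at this
    obtain ⟨k, hk⟩ := Nat.exists_eq_succ_of_ne_zero h0
    refine ⟨k, ?_, ?_⟩
    · rw [hk] at h1; exact h1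
    · by_contra hcon
      push Not at hcon
      have := Nat.find_min hexm (m := k) (by omega)
      exact this hcon
  have hkn : k + 1 ≤ n := by
    by_contra hcon
    obtain ⟨x, hx⟩ := hk2
    apply hx
    obtain ⟨m, hm⟩ := Nat.exists_eq_add_of_le (show n ≤ k by omega)
    rw [hm, add_comm, pow_add, mul_smul, hn', smul_zero]
  obtain ⟨v₀, hv₀⟩ := hk2
  obtain ⟨w₀, hw₀⟩ : ∃ w₀, B (π ^ k • st π ^ n • v₀) w₀ ≠ 0 := by
    by_contra hcon
    push Not at hcon
    exact hv₀ (hnd _ hcon)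
  obtain ⟨v, hv⟩ : ∃ v, v = st π ^ n • v₀ := ⟨_, rfl⟩
  rw [← hv] at hw₀ hv₀
  have hkv : π ^ (k + 1) • v = 0 := by rw [hv]; exact hk1 v₀
  have hnv : π ^ n • v = 0 := by rw [hv]; exact hn' v₀
  obtain ⟨w, hw⟩ : ∃ w, w = π ^ n • u • w₀ := ⟨_, rfl⟩
  have hBw : B (π ^ k • v) w ≠ 0 := by
    have h1 : w₀ = w + (u' * st π ^ n) • w₀ := by
      rw [hw, smul_smul, mul_comm, ← add_smul, hu, one_smul]
    have h2 : B (π ^ k • v) ((u' * st π ^ n) • w₀) = 0 := by
      rw [h.adj', map_mul, map_pow, h.stst, smul_smul]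
      have h3 : st u' * π ^ n * π ^ k = (st u' * π ^ k) * π ^ n := by ring
      rw [h3, mul_smul, hnv, smul_zero, map_zero, LinearMap.zero_apply]
    rw [h1, map_add, h2, add_zero] at hw₀
    exact hw₀
  have hkw : st π ^ (k + 1) • w = 0 := by
    apply hnd
    intro y
    rw [h.adj, map_pow, h.stst, hw, h.adj, map_pow, smul_comm, hk1, map_zero]
  have hnw : st π ^ n • w = 0 := by
    obtain ⟨m, hm⟩ := Nat.exists_eq_add_of_le hkn
    rw [hm, add_comm, pow_add, mul_smul, hkw, smul_zero]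
  have hvv : ∀ a b : R, B (a • v) (b • v) = 0 := by
    intro a b
    have h1 : b • v = st π ^ n • b • v₀ := by rw [hv, smul_comm]
    rw [h1, h.adj', map_pow, h.stst, smul_comm, hnv, smul_zero, map_zero, LinearMap.zero_apply]
  have hww : ∀ a b : R, B (a • w) (b • w) = 0 := by
    intro a b
    have h1 : b • w = π ^ n • b • u • w₀ := by rw [hw, smul_comm]
    rw [h1, h.adj', map_pow, smul_comm, hnw, smul_zero, map_zero, LinearMap.zero_apply]
  have hQv : ∀ a : R, Q (a • v) = 0 := by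
    intro a
    refine q_zero h hg1 (LinearMap.range (cyc (R := R) v)) ?_ _ ⟨a, rfl⟩
    rintro _ ⟨b, rfl⟩ _ ⟨c, rfl⟩
    exact hvv b c
  have hQw : ∀ a : R, Q (a • w) = 0 := by
    intro a
    refine q_zero h hg1 (LinearMap.range (cyc (R := R) w)) ?_ _ ⟨a, rfl⟩
    rintro _ ⟨b, rfl⟩ _ ⟨c, rfl⟩
    exact hww b c
  have hndU : Nd (rB B (LinearMap.range (pr (R := R) v w))) := by
    rintro ⟨_, ⟨a, b⟩, rfl⟩ hy
    apply Subtype.ext
    show a • v + b • w = 0
    have hy' : ∀ c d : R, B (a • v + b • w) (c • v + d • w) = 0 := fun c d => hy ⟨c • v + d • w, (c, d), rfl⟩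
    have ha : a • v = 0 := by
      rcases hπ.val k a with ⟨a₁, rfl⟩ | ⟨c, e, h1⟩
      · rw [mul_comm, mul_smul, hkv, smul_zero]
      · exfalso
        have h3 := hy' 0 (st c)
        rw [zero_smul, zero_add, map_add, LinearMap.add_apply, hww, add_zero, ← h.adj, smul_smul, h1, mul_comm _ e,
          add_smul, mul_smul e, hkv, smul_zero, add_zero] at h3
        exact hBw h3
    have hb : b • w = 0 := by
      rcases hπ.val k (st b) with ⟨b₁, hb₁⟩ | ⟨c, e, h1⟩
      · have h2 : b = st b₁ * st π ^ (k + 1) := by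
          rw [← h.stst b, hb₁, map_mul, map_pow, mul_comm]
        rw [h2, mul_smul, hkw, smul_zero]
      · exfalso
        have h3 := hy' c 0
        rw [zero_smul, add_zero, map_add, LinearMap.add_apply, hvv, zero_add, h.symm, h.adj', smul_smul, mul_comm (st b) c, h1,
          mul_comm _ e, add_smul, mul_smul e, hkv, smul_zero, add_zero] at h3
        rcases mul_eq_zero.1 h3 with h4 | h4
        · have := h.hε
          rw [h4, mul_zero] at this
          exact zero_ne_one this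
        · exact hBw h4
    rw [ha, hb, add_zero]
  refine ⟨LinearMap.range (pr (R := R) v w), ?_, hndU, ?_⟩
  · intro hbot
    have h1 : v ∈ LinearMap.range (pr (R := R) v w) := ⟨(1, 0), by rw [pr_apply, one_smul, zero_smul, add_zero]⟩
    rw [hbot, Submodule.mem_bot] at h1
    rw [h1, smul_zero] at hv₀
    exact hv₀ rfl
  let φ' : (R × R) →ₗ[F] V :=
    { toFun := fun a => st a.1 • w + st a.2 • v
      map_add' := by
        intro a b
        rw [Prod.fst_add, Prod.snd_add, map_add, map_add]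
        simp only [add_smul]
        abel
      map_smul' := by
        intro c a
        rw [Prod.smul_fst, Prod.smul_snd, map_smul, map_smul, RingHom.id_apply, smul_add, smul_assoc, smul_assoc] }
  refine good_range (pr v w) φ' ?_ ?_ ?_ ?_ hndU
  · intro a ξ
    show st (a * ξ.1) • w + st (a * ξ.2) • v = st a • (st ξ.1 • w + st ξ.2 • v)
    rw [map_mul, map_mul, smul_add, smul_smul, smul_smul]
  · intro ξ
    refine ⟨(st ξ.2, st ξ.1), ?_, ?_⟩
    · show st ξ.2 • v + st ξ.1 • w = st ξ.1 • w + st ξ.2 • v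
      rw [add_comm]
    · show st (st ξ.2) • w + st (st ξ.1) • v = ξ.1 • v + ξ.2 • w
      rw [h.stst, h.stst, add_comm]
  · intro ξ η
    show B (st ξ.1 • w + st ξ.2 • v) (st η.1 • w + st η.2 • v)
      = B (η.1 • v + η.2 • w) (ξ.1 • v + ξ.2 • w)
    simp only [map_add, LinearMap.add_apply, hvv, hww]
    have t1 : B (st ξ.1 • w) (st η.2 • v) = B (η.2 • w) (ξ.1 • v) := by
      rw [h.adj, h.stst, h.adj, smul_smul, smul_smul, mul_comm]
    have t2 : B (st ξ.2 • v) (st η.1 • w) = B (η.1 • v) (ξ.2 • w) := by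
      rw [h.adj, h.stst, h.adj, smul_smul, smul_smul, mul_comm]
    rw [t1, t2]
    ring
  · intro ξ
    show Q (st ξ.1 • w + st ξ.2 • v) = Q (ξ.1 • v + ξ.2 • w)
    have t1 : B (st ξ.1 • w) (st ξ.2 • v) = B (ξ.2 • w) (ξ.1 • v) := by
      rw [h.adj, h.stst, h.adj, smul_smul, smul_smul, mul_comm]
    rw [h.qadd, h.qadd, hQv, hQv, hQw, hQw, t1, h.symm (ξ.1 • v), ← mul_assoc, h.hκ]

end Cfsg.Agent.H976.Inv
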